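import Cfsg.Agent.H901.EP.RowGrp

/-!
# S3499, row `J2` in `Sp6(q)`: the abelian group `wg` against `A` (helper901)
-/

set_option autoImplicit false
set_option linter.unusedSectionVars false

open Subgroup Cfsg.Agent.H284 Cfsg.Agent.H419.EP
open scoped MatrixGroups

namespace Cfsg.Agent.H901.EP

section ab
variable {Q : Type*} [Group Q] {F : Type*} [Field F] (m : Model Q (Cfsg.spGL 3 F))
variable {Y : GL (Fin 3 ⊕ Fin 3) F} {hY : Y ∈ Cfsg.spGL 3 F} {h7 : Y ^ 7 = 1}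

/-- the map to `Q` -/
def φ : wg Y hY h7 →* Q where
  toFun a := m.π ⟨a.1, a.2.1⟩
  map_one' := m.π.map_one
  map_mul' a b := by rw [← map_mul]; rfl

theorem wg_comm' (a b : wg Y hY h7) : a * b = b * a := Subtype.ext (wg_comm a.2 b.2)

/-- squaring -/
def D1 : wg Y hY h7 →* wg Y hY h7 where
  toFun a := a * a
  map_one' := mul_one 1
  map_mul' a b := by
    calc a * b * (a * b) = a * (b * a) * b := by group
      _ = a * (a * b) * b := by rw [wg_comm' b a]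
      _ = a * a * (b * b) := by group

/-- conjugation -/
def σ {b : GL (Fin 3 ⊕ Fin 3) F} (hbS : b ∈ Cfsg.spGL 3 F) {k : ℕ} (hb : b * Y * b⁻¹ = Y ^ k) : wg Y hY h7 →* wg Y hY h7 where
  toFun a := ⟨b * a.1 * b⁻¹, conj_mem hbS hb a.2⟩
  map_one' := by
    apply Subtype.ext
    show b * 1 * b⁻¹ = 1
    group
  map_mul' a c := by
    apply Subtype.ext
    show b * (a.1 * c.1) * b⁻¹ = b * a.1 * b⁻¹ * (b * c.1 * b⁻¹)
    group

/-- the commutator map -/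
def D2 {b : GL (Fin 3 ⊕ Fin 3) F} (hbS : b ∈ Cfsg.spGL 3 F) {k : ℕ} (hb : b * Y * b⁻¹ = Y ^ k) : wg Y hY h7 →* wg Y hY h7 where
  toFun a := a⁻¹ * σ hbS hb a
  map_one' := by rw [map_one]; group
  map_mul' a c := by
    rw [map_mul]
    calc (a * c)⁻¹ * (σ hbS hb a * σ hbS hb c) = c⁻¹ * (a⁻¹ * σ hbS hb a) * σ hbS hb c := by group
      _ = (a⁻¹ * σ hbS hb a) * c⁻¹ * σ hbS hb c := by rw [wg_comm' c⁻¹ (a⁻¹ * σ hbS hb a)]
      _ = (a⁻¹ * σ hbS hb a) * (c⁻¹ * σ hbS hb c) := by group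

theorem conj_pow_pow {b : GL (Fin 3 ⊕ Fin 3) F} {k : ℕ} (hb : b * Y * b⁻¹ = Y ^ k) (e : ℕ) :
    b ^ e * Y * (b ^ e)⁻¹ = Y ^ (k ^ e) := by
  induction e with
  | zero => simp
  | succ e ih =>
      calc b ^ (e + 1) * Y * (b ^ (e + 1))⁻¹ = b ^ e * (b * Y * b⁻¹) * (b ^ e)⁻¹ := by
            rw [pow_succ]; group
        _ = (b ^ e * Y * (b ^ e)⁻¹) ^ k := by rw [hb, conj_pow]
        _ = Y ^ (k ^ (e + 1)) := by rw [ih, ← pow_mul, pow_succ]

include h7 in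
theorem pow_mod7 (n : ℕ) : Y ^ n = Y ^ (n % 7) := by
  conv_lhs => rw [← Nat.mod_add_div n 7, pow_add, pow_mul, h7, one_pow, mul_one]

theorem exists_exp {k : ℕ} (h0 : k % 7 ≠ 0) (h1 : k % 7 ≠ 1) : ∃ e : ℕ, k ^ e % 7 = 2 ∨ k ^ e % 7 = 6 := by
  have h : ∀ j : Fin 7, j.1 ≠ 0 → j.1 ≠ 1 → ∃ e : Fin 4, j.1 ^ e.1 % 7 = 2 ∨ j.1 ^ e.1 % 7 = 6 := by decide
  obtain ⟨e, he⟩ := h ⟨k % 7, Nat.mod_lt _ (by norm_num)⟩ h0 h1
  refine ⟨e.1, ?_⟩
  rw [Nat.pow_mod]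
  exact he

/-- **the dichotomy**, one element -/
theorem dich [Finite Q] (h2 : (2 : F) ≠ 0) {A : Subgroup Q} {Γ : Subgroup (MulAut Q)} (h : EPT A Γ)
    (hab : ∀ K : Subgroup Q, K ≤ A → (∀ a ∈ A, ∀ k ∈ K, a * k * a⁻¹ ∈ K) → (∀ a ∈ K, ∀ b ∈ K, a * b = b * a) → K = ⊥)
    {y : Q} (hy : orderOf y = 7) (hyA : y ∈ A)
    (hc : (Nat.card A = 604800 ∧ Nat.card (A ⊓ Subgroup.centralizer {y} : Subgroup Q) = 7) ∨
        (Nat.card A = 1209600 ∧ Nat.card (A ⊓ Subgroup.centralizer {y} : Subgroup Q) ∣ 14))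
    (hYy : m.π ⟨Y, hY⟩ = y) {w : GL (Fin 3 ⊕ Fin 3) F} (hwS : w ∈ Cfsg.spGL 3 F) (hw : w * Y * w⁻¹ = Y ^ 2)
    (a : wg Y hY h7) : φ m (D1 a) ∈ A ∨ φ m (D2 hwS hw a) ∈ A := by
  by_cases hx : φ m a ∈ A
  · left
    rw [show D1 a = a * a from rfl, map_mul]
    exact mul_mem hx hx
  have hxy : φ m a * y = y * φ m a := by
    rw [← hYy]
    show m.π ⟨a.1, a.2.1⟩ * m.π ⟨Y, hY⟩ = m.π ⟨Y, hY⟩ * m.π ⟨a.1, a.2.1⟩
    rw [← map_mul, ← map_mul]
    congr 1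
    exact Subtype.ext (wg_comm_Y a.2)
  obtain ⟨v, hvA, hvx, ⟨k, hk⟩, hvy⟩ := ps_j2 h hab hy hyA hc hx hxy
  obtain ⟨b, hb⟩ := m.surj v
  have hbY : (b : GL (Fin 3 ⊕ Fin 3) F) * Y * (b : GL (Fin 3 ⊕ Fin 3) F)⁻¹ = Y ^ k :=
    conj_lift m h2 (Y := ⟨Y, hY⟩) h7 (by rw [hb, hYy]; exact hk)
  have hk0 : k % 7 ≠ 0 := by
    intro h0
    have h1 : y ^ k = 1 := by
      rw [← orderOf_dvd_iff_pow_eq_one, hy]
      exact Nat.dvd_of_mod_eq_zero h0
    rw [h1, mul_inv_eq_one] at hk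
    have h3 : y = 1 := by simpa using hk
    rw [h3, orderOf_one] at hy
    norm_num at hy
  have hk1 : k % 7 ≠ 1 := by
    intro h0
    have h1 : y ^ k = y := by
      rw [← pow_mod_orderOf, hy, h0, pow_one]
    rw [h1, mul_inv_eq_iff_eq_mul] at hk
    exact hvy hk
  obtain ⟨e, he⟩ := exists_exp hk0 hk1
  have hbe := conj_pow_pow hbY e
  have hve : (φ m a)⁻¹ * v ^ e * φ m a ∈ A := by
    have h1 : (φ m a)⁻¹ * v ^ e * φ m a = ((φ m a)⁻¹ * v * φ m a) ^ e := by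
      have h3 := conj_pow (i := e) (a := (φ m a)⁻¹) (b := v)
      rw [inv_inv] at h3
      exact h3.symm
    rw [h1]
    exact pow_mem hvx e
  have hve2 : (φ m a)⁻¹ * (v ^ e * φ m a * (v ^ e)⁻¹) ∈ A := by
    have h1 : (φ m a)⁻¹ * (v ^ e * φ m a * (v ^ e)⁻¹) = (φ m a)⁻¹ * v ^ e * φ m a * (v ^ e)⁻¹ := by group
    rw [h1]
    exact mul_mem hve (inv_mem (pow_mem hvA e))
  have hbeS : (b : GL (Fin 3 ⊕ Fin 3) F) ^ e ∈ Cfsg.spGL 3 F := pow_mem b.2 e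
  have hφ : ∀ c : wg Y hY h7, c.1 = (b : GL (Fin 3 ⊕ Fin 3) F) ^ e * a.1 * ((b : GL (Fin 3 ⊕ Fin 3) F) ^ e)⁻¹ →
      φ m (a⁻¹ * c) ∈ A := by
    intro c hcc
    have h1 : φ m c = v ^ e * φ m a * (v ^ e)⁻¹ := by
      show m.π ⟨c.1, c.2.1⟩ = v ^ e * m.π ⟨a.1, a.2.1⟩ * (v ^ e)⁻¹
      rw [← hb, ← map_pow, ← map_inv, ← map_mul, ← map_mul]
      congr 1
      exact Subtype.ext hcc
    rw [map_mul, map_inv, h1]
    exact hve2
  rcases he with he | he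
  · right
    rw [pow_mod7 (h7 := h7), he] at hbe
    apply hφ (σ hwS hw a)
    exact conj_eq hw hbe a.2
  · left
    rw [pow_mod7 (h7 := h7), he] at hbe
    have h1 := hφ a⁻¹ (conj_inv hbe a.2).symm
    rw [show D1 a = a * a from rfl]
    have h3 : a * a = (a⁻¹ * a⁻¹)⁻¹ := by rw [mul_inv_rev, inv_inv]
    rw [h3, map_inv]
    exact inv_mem h1

/-- two subgroups covering a group -/
theorem cover {G : Type*} [Group G] {S T : Subgroup G} (hST : ∀ g : G, g ∈ S ∨ g ∈ T) : S = ⊤ ∨ T = ⊤ := by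
  by_contra hn
  push Not at hn
  obtain ⟨hS, hT⟩ := hn
  obtain ⟨a, ha⟩ : ∃ a, a ∉ S := by
    by_contra h
    push Not at h
    exact hS ((Subgroup.eq_top_iff' S).2 h)
  obtain ⟨b, hb⟩ : ∃ b, b ∉ T := by
    by_contra h
    push Not at h
    exact hT ((Subgroup.eq_top_iff' T).2 h)
  have haT := (hST a).resolve_left ha
  have hbS := (hST b).resolve_right hb
  rcases hST (a * b) with h | h
  · exact ha ((Subgroup.mul_mem_cancel_right S hbS).1 h)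
  · exact hb ((Subgroup.mul_mem_cancel_left T haT).1 h)

theorem ker_card : Nat.card (φ m (hY := hY) (h7 := h7)).ker ≤ 2 := by
  have hsub : ((φ m (hY := hY) (h7 := h7)).ker : Set (wg Y hY h7)) ⊆
      (fun a : wg Y hY h7 => a.1) ⁻¹' {1, -1} := by
    intro a ha
    have h1 : m.π ⟨a.1, a.2.1⟩ = m.π 1 := by
      rw [map_one]; exact ha
    rcases π_eq m h1 with h | h
    · exact Or.inl h
    · exact Or.inr h
  have hfin : ({1, -1} : Set (GL (Fin 3 ⊕ Fin 3) F)).Finite := (Set.finite_singleton _).insert _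
  calc Nat.card (φ m (hY := hY) (h7 := h7)).ker
      = ((φ m (hY := hY) (h7 := h7)).ker : Set (wg Y hY h7)).ncard := rfl
    _ ≤ ((fun a : wg Y hY h7 => a.1) ⁻¹' {1, -1}).ncard :=
        Set.ncard_le_ncard hsub (hfin.preimage (Subtype.val_injective.injOn))
    _ ≤ ({1, -1} : Set (GL (Fin 3 ⊕ Fin 3) F)).ncard := by
        refine Set.ncard_le_ncard_of_injOn (fun a : wg Y hY h7 => a.1) (fun a ha => ha) Subtype.val_injective.injOn hfin
    _ ≤ 2 := Set.ncard_insert_le _ _ |>.trans (by rw [Set.ncard_singleton])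

/-- the preimage of `A` has at most 28 elements -/
theorem card_hat [Finite F] {A : Subgroup Q} {y : Q} (hfinA : Finite A) (hYy : m.π ⟨Y, hY⟩ = y)
    (hc : Nat.card (A ⊓ Subgroup.centralizer {y} : Subgroup Q) ≤ 14) :
    Nat.card (A.comap (φ m (hY := hY) (h7 := h7))) ≤ 28 := by
  set H := A.comap (φ m (hY := hY) (h7 := h7)) with hH
  have h1 := hom_card ((φ m (hY := hY) (h7 := h7)).comp H.subtype)
  rw [h1]
  have h2 : Nat.card ((φ m (hY := hY) (h7 := h7)).comp H.subtype).range ≤ 14 := by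
    refine le_trans ?_ hc
    have : Finite (A ⊓ Subgroup.centralizer {y} : Subgroup Q) :=
      Finite.of_injective (Subgroup.inclusion inf_le_left) (Subgroup.inclusion_injective _)
    apply Subgroup.card_le_of_le
    rintro _ ⟨a, rfl⟩
    refine ⟨a.2, Subgroup.mem_centralizer_singleton_iff.2 ?_⟩
    rw [← hYy]
    show m.π ⟨a.1.1, a.1.2.1⟩ * m.π ⟨Y, hY⟩ = m.π ⟨Y, hY⟩ * m.π ⟨a.1.1, a.1.2.1⟩
    rw [← map_mul, ← map_mul]
    congr 1
    exact Subtype.ext (wg_comm_Y a.1.2)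
  have h3 : Nat.card ((φ m (hY := hY) (h7 := h7)).comp H.subtype).ker ≤ 2 := by
    refine le_trans ?_ (ker_card m (hY := hY) (h7 := h7))
    have : Finite (φ m (hY := hY) (h7 := h7)).ker := inferInstance
    refine Nat.card_le_card_of_injective (fun a => (⟨a.1.1, a.2⟩ : (φ m (hY := hY) (h7 := h7)).ker)) ?_
    intro a b hab
    exact Subtype.ext (Subtype.ext (congrArg (fun z => z.1) hab))
  calc _ ≤ 14 * 2 := Nat.mul_le_mul h2 h3
    _ = 28 := by norm_num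

end ab

end Cfsg.Agent.H901.EP
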