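import Cfsg.Agent.H901.EP.RowAb

/-!
# S3499, row `J2` in `Sp6(q)`: the image of the commutator map (helper901)
-/

set_option autoImplicit false
set_option linter.unusedSectionVars false

open Subgroup Cfsg.Agent.H284 Cfsg.Agent.H419.EP
open scoped MatrixGroups

namespace Cfsg.Agent.H901.EP

theorem index_two_aux {Q : Type*} [Group Q] [Finite Q] {y : Q} (hy : orderOf y = 7) {C : Subgroup Q} (hyC : y ∈ C)
    (hC : Nat.card C ∣ 14) {z z' : Q} (hz : z ∈ C) (hz' : z' ∈ C) (h1 : z ∉ zpowers y) (h2 : z' ∉ zpowers y) :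
    z * z' ∈ zpowers y := by
  have hle : zpowers y ≤ C := by rw [zpowers_le]; exact hyC
  have h3 : Nat.card ((zpowers y).subgroupOf C) = 7 := by
    rw [Nat.card_congr (Subgroup.subgroupOfEquivOfLe hle).toEquiv, Nat.card_zpowers, hy]
  have h4 := ((zpowers y).subgroupOf C).card_mul_index
  rw [h3] at h4
  have h5 : ((zpowers y).subgroupOf C).index ∣ 2 := by
    rw [← h4] at hC
    exact Nat.dvd_of_mul_dvd_mul_left (by norm_num : 0 < 7) (by simpa using hC)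
  rcases (Nat.dvd_prime Nat.prime_two).1 h5 with h6 | h6
  · rw [Subgroup.index_eq_one, Subgroup.subgroupOf_eq_top] at h6
    exact absurd (h6 hz) h1
  · have h7 := Subgroup.mul_mem_iff_of_index_two h6 (a := (⟨z, hz⟩ : C)) (b := ⟨z', hz'⟩)
    rw [Subgroup.mem_subgroupOf, Subgroup.mem_subgroupOf, Subgroup.mem_subgroupOf] at h7
    exact h7.2 ⟨fun h => absurd h h1, fun h => absurd h h2⟩

section ab
variable {Q : Type*} [Group Q] [Finite Q] {F : Type*} [Field F] (m : Model Q (Cfsg.spGL 3 F))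
variable {Y : GL (Fin 3 ⊕ Fin 3) F} {hY : Y ∈ Cfsg.spGL 3 F} {h7 : Y ^ 7 = 1}

theorem σ_cube {w : GL (Fin 3 ⊕ Fin 3) F} (hwS : w ∈ Cfsg.spGL 3 F) (hw : w * Y * w⁻¹ = Y ^ 2) (a : wg Y hY h7) :
    σ hwS hw (σ hwS hw (σ hwS hw a)) = a := by
  apply Subtype.ext
  show w * (w * (w * a.1 * w⁻¹) * w⁻¹) * w⁻¹ = a.1
  have h1 := conj_pow_pow hw 3
  rw [pow_mod7 (h7 := h7)] at h1
  have h2 : (1 : GL (Fin 3 ⊕ Fin 3) F) * Y * 1⁻¹ = Y ^ (2 ^ 3 % 7) := by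
    norm_num
  have h3 := conj_eq h1 h2 a.2
  calc w * (w * (w * a.1 * w⁻¹) * w⁻¹) * w⁻¹ = w ^ 3 * a.1 * (w ^ 3)⁻¹ := by
        rw [pow_succ, pow_two]; group
    _ = 1 * a.1 * 1⁻¹ := h3
    _ = a.1 := by group

theorem D2_norm {w : GL (Fin 3 ⊕ Fin 3) F} (hwS : w ∈ Cfsg.spGL 3 F) (hw : w * Y * w⁻¹ = Y ^ 2) (a : wg Y hY h7) :
    D2 hwS hw a * σ hwS hw (D2 hwS hw a) * σ hwS hw (σ hwS hw (D2 hwS hw a)) = 1 := by
  show a⁻¹ * σ hwS hw a * σ hwS hw (a⁻¹ * σ hwS hw a) * σ hwS hw (σ hwS hw (a⁻¹ * σ hwS hw a)) = 1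
  simp only [map_mul, map_inv, σ_cube]
  group

theorem φ_σ {w : GL (Fin 3 ⊕ Fin 3) F} (hwS : w ∈ Cfsg.spGL 3 F) {k : ℕ} (hw : w * Y * w⁻¹ = Y ^ k) (a : wg Y hY h7) :
    φ m (σ hwS hw a) = m.π ⟨w, hwS⟩ * φ m a * (m.π ⟨w, hwS⟩)⁻¹ := by
  show m.π _ = m.π ⟨w, hwS⟩ * m.π ⟨a.1, a.2.1⟩ * (m.π ⟨w, hwS⟩)⁻¹
  rw [← map_inv, ← map_mul, ← map_mul]
  rfl

theorem φ_comm {y : Q} (hYy : m.π ⟨Y, hY⟩ = y) (a : wg Y hY h7) : φ m a * y = y * φ m a := by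
  rw [← hYy]
  show m.π ⟨a.1, a.2.1⟩ * m.π ⟨Y, hY⟩ = m.π ⟨Y, hY⟩ * m.π ⟨a.1, a.2.1⟩
  rw [← map_mul, ← map_mul]
  congr 1
  exact Subtype.ext (wg_comm_Y a.2)

/-- in the second case the image of `D2` consists of the powers of `Y` -/
theorem D2_pow (h2 : (2 : F) ≠ 0) {A : Subgroup Q} {y : Q} (hy : orderOf y = 7) (hyA : y ∈ A)
    (hC : Nat.card (A ⊓ Subgroup.centralizer {y} : Subgroup Q) ∣ 14)
    (hYy : m.π ⟨Y, hY⟩ = y) {w : GL (Fin 3 ⊕ Fin 3) F} (hwS : w ∈ Cfsg.spGL 3 F) (hw : w * Y * w⁻¹ = Y ^ 2)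
    (hwA : m.π ⟨w, hwS⟩ ∈ A) {a : wg Y hY h7} (ha : φ m (D2 hwS hw a) ∈ A) :
    ∃ i : Fin 7, (D2 hwS hw a).1 = Y ^ i.1 := by
  obtain ⟨c, hc⟩ : ∃ c, c = D2 hwS hw a := ⟨_, rfl⟩
  have hN := D2_norm hwS hw a
  rw [← hc] at ha hN ⊢
  obtain ⟨g, hg⟩ : ∃ g, g = m.π ⟨w, hwS⟩ := ⟨_, rfl⟩
  rw [← hg] at hwA
  have hgy : g * y * g⁻¹ = y ^ 2 := by
    rw [hg, ← hYy, ← map_inv, ← map_mul, ← map_mul, ← map_pow]
    congr 1
    exact Subtype.ext hw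
  have hgy4 : g * y ^ 4 * g⁻¹ = y := by
    rw [← conj_pow, hgy, ← pow_mul]
    have : y ^ 7 = 1 := by rw [← hy, pow_orderOf_eq_one]
    calc y ^ (2 * 4) = y ^ 7 * y := by rw [← pow_succ]
      _ = y := by rw [this, one_mul]
  -- conjugation by `g` and the powers of `y`
  have hcj : ∀ z : Q, g * z * g⁻¹ ∈ zpowers y → z ∈ zpowers y := by
    intro z hz
    obtain ⟨j, hj⟩ := mem_zpowers_iff.1 hz
    have h3 : g * (y ^ 4) ^ j * g⁻¹ = y ^ j := by rw [← conj_zpow, hgy4]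
    have h4 : (y ^ 4) ^ j = z := by
      have h5 : g * (y ^ 4) ^ j = g * z := mul_right_cancel (h3.trans hj)
      exact mul_left_cancel h5
    rw [← h4]
    exact zpow_mem (pow_mem (mem_zpowers y) 4) j
  have hz0 : φ m c ∈ A ⊓ Subgroup.centralizer {y} := ⟨ha, mem_centralizer_singleton_iff.2 (φ_comm m hYy c)⟩
  have hz1 : φ m (σ hwS hw c) ∈ A ⊓ Subgroup.centralizer {y} := by
    refine ⟨?_, mem_centralizer_singleton_iff.2 (φ_comm m hYy _)⟩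
    show φ m (σ hwS hw c) ∈ A
    rw [φ_σ, ← hg]
    exact mul_mem (mul_mem hwA ha) (inv_mem hwA)
  have hyC : y ∈ A ⊓ Subgroup.centralizer {y} := ⟨hyA, mem_centralizer_singleton_iff.2 rfl⟩
  have hz : φ m c ∈ zpowers y := by
    by_contra hz
    have hz' : φ m (σ hwS hw c) ∉ zpowers y := by
      intro h
      rw [φ_σ, ← hg] at h
      exact hz (hcj _ h)
    have h3 := index_two_aux hy hyC hC hz0 hz1 hz hz'
    have h4 : φ m (σ hwS hw (σ hwS hw c)) = (φ m c * φ m (σ hwS hw c))⁻¹ := by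
      have h5 := congrArg (φ m) hN
      rw [map_mul, map_mul, map_one] at h5
      exact (inv_eq_of_mul_eq_one_right h5).symm
    apply hz'
    apply hcj
    have h6 : g * φ m (σ hwS hw c) * g⁻¹ = φ m (σ hwS hw (σ hwS hw c)) := by rw [φ_σ m hwS hw (σ hwS hw c), ← hg]
    rw [h6, h4]
    exact inv_mem h3
  obtain ⟨i, hi⟩ : ∃ i : ℕ, y ^ i = φ m c := mem_powers_iff_mem_zpowers.2 hz
  have hi7 : y ^ (i % 7) = φ m c := by
    rw [← hi, ← hy, pow_mod_orderOf]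
  have hπ : m.π ⟨c.1, c.2.1⟩ = m.π (⟨Y, hY⟩ ^ (i % 7)) := by
    rw [map_pow, hYy, hi7]
    rfl
  refine ⟨⟨i % 7, Nat.mod_lt _ (by norm_num)⟩, ?_⟩
  rcases π_eq m hπ with h3 | h3
  · exact h3
  · exfalso
    have h3' : c.1 = -(Y ^ (i % 7)) := h3
    have h4 : c.1 * (w * c.1 * w⁻¹) * (w * (w * c.1 * w⁻¹) * w⁻¹) = 1 := congrArg Subtype.val hN
    have h5 : ∀ j : ℕ, w * Y ^ j * w⁻¹ = Y ^ (2 * j) := by
      intro j
      rw [← conj_pow, hw, ← pow_mul]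
    have h6 : w * c.1 * w⁻¹ = -(Y ^ (2 * (i % 7))) := by
      rw [h3', mul_neg, neg_mul, h5]
    have h7' : w * (w * c.1 * w⁻¹) * w⁻¹ = -(Y ^ (2 * (2 * (i % 7)))) := by
      rw [h6, mul_neg, neg_mul, h5]
    rw [h7', h6, h3'] at h4
    rw [neg_mul_neg, mul_neg, ← pow_add, ← pow_add] at h4
    have h8 : i % 7 + 2 * (i % 7) + 2 * (2 * (i % 7)) = 7 * (i % 7) := by ring
    rw [h8, pow_mul, h7, one_pow] at h4
    have h9 := congrArg (fun g : GL (Fin 3 ⊕ Fin 3) F => g.1 (Sum.inl 0) (Sum.inl 0)) h4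
    have h10 : (-1 : F) = 1 := by simpa using h9
    apply h2
    linear_combination -h10

/-- in the second case the image of `D2` has at most 7 elements -/
theorem card_D2 (h2 : (2 : F) ≠ 0) {A : Subgroup Q} {y : Q} (hy : orderOf y = 7) (hyA : y ∈ A)
    (hC : Nat.card (A ⊓ Subgroup.centralizer {y} : Subgroup Q) ∣ 14)
    (hYy : m.π ⟨Y, hY⟩ = y) {w : GL (Fin 3 ⊕ Fin 3) F} (hwS : w ∈ Cfsg.spGL 3 F) (hw : w * Y * w⁻¹ = Y ^ 2)
    (hwA : m.π ⟨w, hwS⟩ ∈ A) (ha : ∀ a : wg Y hY h7, φ m (D2 hwS hw a) ∈ A) :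
    Nat.card (D2 hwS hw (hY := hY) (h7 := h7)).range ≤ 7 := by
  have h : ∀ c : (D2 hwS hw (hY := hY) (h7 := h7)).range, ∃ i : Fin 7, c.1.1 = Y ^ i.1 := by
    rintro ⟨_, a, rfl⟩
    exact D2_pow m h2 hy hyA hC hYy hwS hw hwA (ha a)
  choose f hf using h
  have hinj : Function.Injective f := by
    intro c d hcd
    apply Subtype.ext
    apply Subtype.ext
    rw [hf c, hf d, hcd]
  calc Nat.card (D2 hwS hw (hY := hY) (h7 := h7)).range ≤ Nat.card (Fin 7) := Nat.card_le_card_of_injective f hinj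
    _ = 7 := by simp

end ab

end Cfsg.Agent.H901.EP
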